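import Mathlib
import Cfsg.Agent.Lib.Helper32.Scn.Tools

/-!
# S1904 package (MF): the case `n = 2` is impossible

`M` is homocyclic of exponent `4` with `M² = Ω₁(M) = V = omZ X`, `[X, M] ⊆ V`, `C_X(M) = M`.
For `m₁ ∈ M` with `m₁² = v₁ ≠ 1` the maps `x ↦ [x, m₁]`, `x ↦ [x, φ m₁]` are homomorphisms
`X → V` with common kernel `M`, and `[x, φ m₁] = φ² [x, m₁]` for all `x` (it holds for the
generators `x⁻¹ ψ(x)`).  Hence `[x, m] ≠ 1` for `x ∉ M`, `m ∈ M ∖ V`; so `x² ∈ V` for all `x`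
(`[x, x²] = 1`), then all commutators lie in `V` (`[g x, [g, x]] = [g, x]⁻⁴ = 1`), so
`X = bigW X ≤ M` is abelian: contradiction.
-/

set_option autoImplicit false

universe u

namespace Cfsg.Agent.Lib.Helper29.Scn

open Cfsg.Agent.Lib.Helper32.Scn

variable {X : Type u} [Group X]

/-! ### commutators with elements of `M` -/

theorem cm_mul_left {M : Subgroup X}
    (hcV : ∀ x : X, ∀ m ∈ M, x * m * x⁻¹ * m⁻¹ ∈ omZ X) (x y m : X) (hm : m ∈ M) :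
    (x * y) * m * (x * y)⁻¹ * m⁻¹ = (x * m * x⁻¹ * m⁻¹) * (y * m * y⁻¹ * m⁻¹) := by
  have h := omZ_comm (hcV y m hm) x
  calc (x * y) * m * (x * y)⁻¹ * m⁻¹ = x * (y * m * y⁻¹ * m⁻¹) * m * x⁻¹ * m⁻¹ := by group
    _ = (y * m * y⁻¹ * m⁻¹) * x * m * x⁻¹ * m⁻¹ := by rw [h]
    _ = (y * m * y⁻¹ * m⁻¹) * (x * m * x⁻¹ * m⁻¹) := by group
    _ = (x * m * x⁻¹ * m⁻¹) * (y * m * y⁻¹ * m⁻¹) := (omZ_comm (hcV y m hm) _).symm

theorem cm_mul_right {M : Subgroup X}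
    (hcV : ∀ x : X, ∀ m ∈ M, x * m * x⁻¹ * m⁻¹ ∈ omZ X) (x m m' : X) (hm' : m' ∈ M) :
    x * (m * m') * x⁻¹ * (m * m')⁻¹ = (x * m * x⁻¹ * m⁻¹) * (x * m' * x⁻¹ * m'⁻¹) := by
  have h := omZ_comm (hcV x m' hm') (x * m * x⁻¹)
  calc x * (m * m') * x⁻¹ * (m * m')⁻¹ = (x * m * x⁻¹) * (x * m' * x⁻¹ * m'⁻¹) * m⁻¹ := by group
    _ = (x * m' * x⁻¹ * m'⁻¹) * (x * m * x⁻¹) * m⁻¹ := by rw [h]
    _ = (x * m' * x⁻¹ * m'⁻¹) * (x * m * x⁻¹ * m⁻¹) := by group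
    _ = (x * m * x⁻¹ * m⁻¹) * (x * m' * x⁻¹ * m'⁻¹) := (omZ_comm (hcV x m' hm') _).symm

theorem cm_omZ (x v : X) (hv : v ∈ omZ X) : x * v * x⁻¹ * v⁻¹ = 1 := by
  rw [omZ_comm hv x]
  group

theorem cm_aut (ψ : MulAut X) (x m : X) :
    ψ (x * m * x⁻¹ * m⁻¹) = ψ x * ψ m * (ψ x)⁻¹ * (ψ m)⁻¹ := by
  simp only [map_mul, map_inv]

theorem cm_congr {M : Subgroup X} (hMab : ∀ a ∈ M, ∀ b ∈ M, a * b = b * a)
    (hinvol : ∀ m ∈ M, m * m = 1 → m ∈ omZ X)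
    (hcV : ∀ x : X, ∀ m ∈ M, x * m * x⁻¹ * m⁻¹ ∈ omZ X) (x m m' : X) (hm : m ∈ M)
    (hm' : m' ∈ M) (h : m * m = m' * m') :
    x * m * x⁻¹ * m⁻¹ = x * m' * x⁻¹ * m'⁻¹ := by
  have hd : m'⁻¹ * m ∈ M := M.mul_mem (M.inv_mem hm') hm
  have hd2 : (m'⁻¹ * m) * (m'⁻¹ * m) = 1 := by
    have hc := hMab m hm m'⁻¹ (M.inv_mem hm')
    calc (m'⁻¹ * m) * (m'⁻¹ * m) = m'⁻¹ * (m * m'⁻¹) * m := by group
      _ = m'⁻¹ * (m'⁻¹ * m) * m := by rw [hc]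
      _ = m'⁻¹ * m'⁻¹ * (m * m) := by group
      _ = 1 := by rw [h]; group
  have hv := hinvol _ hd hd2
  have e : m' * (m'⁻¹ * m) = m := by group
  calc x * m * x⁻¹ * m⁻¹ = x * (m' * (m'⁻¹ * m)) * x⁻¹ * (m' * (m'⁻¹ * m))⁻¹ := by rw [e]
    _ = (x * m' * x⁻¹ * m'⁻¹) * (x * (m'⁻¹ * m) * x⁻¹ * (m'⁻¹ * m)⁻¹) :=
        cm_mul_right hcV x m' _ hd
    _ = x * m' * x⁻¹ * m'⁻¹ := by rw [cm_omZ x _ hv, mul_one]

/-- `x ↦ [x, m]` as a homomorphism into `omZ X`. -/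
def cmHom {M : Subgroup X} (hcV : ∀ x : X, ∀ m ∈ M, x * m * x⁻¹ * m⁻¹ ∈ omZ X) (m : X)
    (hm : m ∈ M) : X →* ↥(omZ X) where
  toFun x := ⟨x * m * x⁻¹ * m⁻¹, hcV x m hm⟩
  map_one' := Subtype.ext (by
    show 1 * m * 1⁻¹ * m⁻¹ = 1
    group)
  map_mul' x y := Subtype.ext (cm_mul_left hcV x y m hm)

/-- the restriction of an automorphism to `omZ X`. -/
def resV (ψ : MulAut X) : ↥(omZ X) →* ↥(omZ X) where
  toFun v := ⟨ψ v, omZ_aut ψ v.2⟩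
  map_one' := Subtype.ext (map_one ψ)
  map_mul' a b := Subtype.ext (map_mul ψ (a : X) (b : X))

theorem cm_comm_eq_one {M : Subgroup X}
    (hcV : ∀ x : X, ∀ m ∈ M, x * m * x⁻¹ * m⁻¹ ∈ omZ X) (g x m : X) (hm : m ∈ M) :
    (g * x * g⁻¹ * x⁻¹) * m * (g * x * g⁻¹ * x⁻¹)⁻¹ * m⁻¹ = 1 := by
  have h : cmHom hcV m hm (g * x * g⁻¹ * x⁻¹) = 1 := by
    rw [map_mul, map_mul, map_mul, map_inv, map_inv]
    have hc : cmHom hcV m hm g * cmHom hcV m hm x = cmHom hcV m hm x * cmHom hcV m hm g :=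
      Subtype.ext (omZ_comm (cmHom hcV m hm x).2 _)
    rw [hc]
    group
  exact congrArg Subtype.val h

/-! ### identities in an abelian group of exponent 2 with a 3-cycle `F` -/

theorem vE1 {V : Type*} [Group V] (F : V →* V) (hcomm : ∀ a b : V, a * b = b * a)
    (hsq : ∀ v : V, v * v = 1) (hmul : ∀ v : V, v * F v = F (F v))
    (h3 : ∀ v : V, F (F (F v)) = v) (a b : V) :
    b⁻¹ * F a = (F (F a))⁻¹ * F (F (F (a * b))) := by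
  have hinv : ∀ v : V, v⁻¹ = v := fun v => inv_eq_of_mul_eq_one_left (hsq v)
  rw [h3 (a * b), hinv b, hinv (F (F a)), ← hmul a]
  calc b * F a = F a * b := hcomm _ _
    _ = (a * a) * (F a * b) := by rw [hsq, one_mul]
    _ = a * (a * F a) * b := by group
    _ = a * (F a * a) * b := by rw [hcomm a (F a)]
    _ = a * F a * (a * b) := by group

theorem vE2 {V : Type*} [Group V] (F : V →* V) (hcomm : ∀ a b : V, a * b = b * a)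
    (hsq : ∀ v : V, v * v = 1) (hmul : ∀ v : V, v * F v = F (F v))
    (h3 : ∀ v : V, F (F (F v)) = v) (a b : V) :
    b⁻¹ * F (F (a * b)) = (F (F a))⁻¹ * F (F (F (F b))) := by
  have hinv : ∀ v : V, v⁻¹ = v := fun v => inv_eq_of_mul_eq_one_left (hsq v)
  rw [h3 (F b), map_mul, map_mul, hinv b, hinv (F (F a)), ← hmul b]
  calc b * (F (F a) * (b * F b)) = b * (F (F a) * b) * F b := by group
    _ = b * (b * F (F a)) * F b := by rw [hcomm (F (F a)) b]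
    _ = (b * b) * F (F a) * F b := by group
    _ = F (F a) * F b := by rw [hsq, one_mul]

theorem aux1 (k x : X) (h1 : (k * x) * (k * x) = x * x) : x * k * x⁻¹ * k⁻¹ = k⁻¹ * k⁻¹ := by
  calc x * k * x⁻¹ * k⁻¹ = k⁻¹ * ((k * x) * (k * x)) * x⁻¹ * x⁻¹ * k⁻¹ := by group
    _ = k⁻¹ * (x * x) * x⁻¹ * x⁻¹ * k⁻¹ := by rw [h1]
    _ = k⁻¹ * k⁻¹ := by group

theorem aux2 (k g : X) (h2 : (k⁻¹ * g) * (k⁻¹ * g) = g * g) :
    g * k * g⁻¹ * k⁻¹ = k⁻¹ * k⁻¹ := by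
  calc g * k * g⁻¹ * k⁻¹ = g * g * ((k⁻¹ * g) * (k⁻¹ * g))⁻¹ * k⁻¹ * k⁻¹ := by group
    _ = g * g * (g * g)⁻¹ * k⁻¹ * k⁻¹ := by rw [h2]
    _ = k⁻¹ * k⁻¹ := by group

/-- **(MF)** `n = 2` is impossible. -/
theorem lemMF : LemMF.{u} := by
  intro X _ _ A φ M n hc ht hn
  subst hn
  have b := hc.c.b
  have hy := b.hyp
  have hMn := hc.c.nrm
  have hMinv := hc.c.inv
  have hMab := hc.c.ab
  have hWle := hc.c.W_le
  obtain ⟨m0, hm0, hm0V⟩ := hc.c.ne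
  have hMne : M ≠ ⊥ := by
    rintro rfl
    rw [Subgroup.mem_bot] at hm0
    rw [hm0] at hm0V
    exact hm0V (omZ X).one_mem
  obtain ⟨hVM, hinvol⟩ := b.abel M hMn hMinv hMab hMne
  have hexp4 : ∀ m ∈ M, m ^ 4 = 1 := by
    intro m hm
    have h4 := hc.exp m hm
    norm_num at h4
    exact h4
  have hsqV : ∀ m ∈ M, m * m ∈ omZ X := by
    intro m hm
    apply hinvol _ (M.mul_mem hm hm)
    calc m * m * (m * m) = m ^ 4 := by simp only [pow_succ, pow_zero, one_mul, mul_assoc]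
      _ = 1 := hexp4 m hm
  have hcV : ∀ x : X, ∀ m ∈ M, x * m * x⁻¹ * m⁻¹ ∈ omZ X := by
    intro x m hm
    have h1 : x * m * x⁻¹ * m⁻¹ ∈ M := M.mul_mem (hMn.conj_mem m hm x) (M.inv_mem hm)
    apply hinvol _ h1
    have h2 := ht.lvn x m hm
    norm_num at h2
    rw [← pow_two]
    exact h2
  obtain ⟨v₁, hv₁, hv₁1⟩ : ∃ v ∈ omZ X, v ≠ 1 := by
    have hne : omZ X ≠ ⊥ := by
      intro hbot
      have := b.Vcard
      rw [hbot, Subgroup.card_bot] at this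
      omega
    obtain ⟨⟨v, hv⟩, hv1⟩ := (Subgroup.ne_bot_iff_exists_ne_one).mp hne
    exact ⟨v, hv, fun h => hv1 (Subtype.ext h)⟩
  obtain ⟨m₁, hm₁, hm₁sq'⟩ := hc.top v₁ hv₁
  have hm₁sq : m₁ * m₁ = v₁ := by
    norm_num at hm₁sq'
    rw [← pow_two]
    exact hm₁sq'
  have hm₂ : φ m₁ ∈ M := hMinv φ b.φmem m₁ hm₁
  have hm₂sq : φ m₁ * φ m₁ = φ v₁ := by rw [← map_mul, hm₁sq]
  have hm₁₂ : m₁ * φ m₁ ∈ M := M.mul_mem hm₁ hm₂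
  have hm₁₂sq : (m₁ * φ m₁) * (m₁ * φ m₁) = φ (φ v₁) := by
    have hcomm := hMab (φ m₁) hm₂ m₁ hm₁
    calc (m₁ * φ m₁) * (m₁ * φ m₁) = m₁ * (φ m₁ * m₁) * φ m₁ := by group
      _ = m₁ * (m₁ * φ m₁) * φ m₁ := by rw [hcomm]
      _ = (m₁ * m₁) * (φ m₁ * φ m₁) := by group
      _ = v₁ * φ v₁ := by rw [hm₁sq, hm₂sq]
      _ = φ (φ v₁) := b.mul_phi hv₁
  have hφv₁ := b.phi_mem hv₁
  have hφφv₁ := b.phi_mem hφv₁
  have hcong := cm_congr hMab hinvol hcV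
  -- the value of `[x, m]` for `m ∈ M`
  have hD : ∀ x : X, ∀ m ∈ M, (m * m = 1 ∧ x * m * x⁻¹ * m⁻¹ = 1) ∨
      (m * m ≠ 1 ∧ x * m * x⁻¹ * m⁻¹ = x * m₁ * x⁻¹ * m₁⁻¹) ∨
      (m * m ≠ 1 ∧ x * m * x⁻¹ * m⁻¹ = x * φ m₁ * x⁻¹ * (φ m₁)⁻¹) ∨
      (m * m ≠ 1 ∧ x * m * x⁻¹ * m⁻¹ =
        (x * m₁ * x⁻¹ * m₁⁻¹) * (x * φ m₁ * x⁻¹ * (φ m₁)⁻¹)) := by
    intro x m hm
    rcases b.V_cases hv₁ hv₁1 (m * m) (hsqV m hm) with h | h | h | h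
    · exact Or.inl ⟨h, cm_omZ x m (hinvol m hm h)⟩
    · right; left
      exact ⟨by rw [h]; exact hv₁1, hcong x m m₁ hm hm₁ (by rw [h, hm₁sq])⟩
    · right; right; left
      exact ⟨by rw [h]; exact b.phi_ne_one hv₁1, hcong x m (φ m₁) hm hm₂ (by rw [h, hm₂sq])⟩
    · right; right; right
      refine ⟨by rw [h]; exact b.phi_ne_one (b.phi_ne_one hv₁1), ?_⟩
      rw [hcong x m (m₁ * φ m₁) hm hm₁₂ (by rw [h, hm₁₂sq])]
      exact cm_mul_right hcV x m₁ (φ m₁) hm₂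
  -- centralizing `m₁` and `φ m₁` means lying in `M`
  have hC : ∀ x : X, x * m₁ * x⁻¹ * m₁⁻¹ = 1 → x * φ m₁ * x⁻¹ * (φ m₁)⁻¹ = 1 → x ∈ M := by
    intro x h1 h2
    apply ht.cen
    intro m hm
    have hcm : x * m * x⁻¹ * m⁻¹ = 1 := by
      rcases hD x m hm with ⟨-, h⟩ | ⟨-, h⟩ | ⟨-, h⟩ | ⟨-, h⟩
      · exact h
      · rw [h, h1]
      · rw [h, h2]
      · rw [h, h1, h2, one_mul]
    calc x * m = (x * m * x⁻¹ * m⁻¹) * m * x := by group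
      _ = m * x := by rw [hcm, one_mul]
  -- the relation `[x, φ m₁] = φ² [x, m₁]`
  have hR : ∀ x : X, x * φ m₁ * x⁻¹ * (φ m₁)⁻¹ = φ (φ (x * m₁ * x⁻¹ * m₁⁻¹)) := by
    have hcomm : ∀ a b : ↥(omZ X), a * b = b * a := fun a b => Subtype.ext (omZ_comm b.2 (a : X))
    have hsq : ∀ v : ↥(omZ X), v * v = 1 := fun v => Subtype.ext (omZ_sq v.2)
    have hmul : ∀ v : ↥(omZ X), v * resV φ v = resV φ (resV φ v) :=
      fun v => Subtype.ext (b.mul_phi v.2)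
    have h3 : ∀ v : ↥(omZ X), resV φ (resV φ (resV φ v)) = v := fun v => Subtype.ext (b.phi3 v.2)
    have key : ∀ x : X, x ∈ MonoidHom.eqLocus (cmHom hcV (φ m₁) hm₂)
        (((resV φ).comp (resV φ)).comp (cmHom hcV m₁ hm₁)) := by
      apply hy.top_of_mem
      intro ψ hψ x
      show cmHom hcV (φ m₁) hm₂ (x⁻¹ * ψ x) =
        resV φ (resV φ (cmHom hcV m₁ hm₁ (x⁻¹ * ψ x)))
      have hK : ∀ m m' : X, m ∈ M → m' ∈ M → m * m = ψ (m' * m') →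
          ψ x * m * (ψ x)⁻¹ * m⁻¹ = ψ (x * m' * x⁻¹ * m'⁻¹) := by
        intro m m' hm hm' h
        rw [cm_aut ψ x m']
        exact hcong (ψ x) m (ψ m') hm (hMinv ψ hψ m' hm') (by rw [← map_mul]; exact h)
      simp only [map_mul, map_inv]
      rcases b.actV ψ hψ with h0 | h1 | h2
      · have hα : cmHom hcV m₁ hm₁ (ψ x) = cmHom hcV m₁ hm₁ x := by
          apply Subtype.ext
          show ψ x * m₁ * (ψ x)⁻¹ * m₁⁻¹ = x * m₁ * x⁻¹ * m₁⁻¹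
          rw [hK m₁ m₁ hm₁ hm₁ (by rw [hm₁sq, h0 v₁ hv₁])]
          exact h0 _ (hcV x m₁ hm₁)
        have hβ : cmHom hcV (φ m₁) hm₂ (ψ x) = cmHom hcV (φ m₁) hm₂ x := by
          apply Subtype.ext
          show ψ x * φ m₁ * (ψ x)⁻¹ * (φ m₁)⁻¹ = x * φ m₁ * x⁻¹ * (φ m₁)⁻¹
          rw [hK (φ m₁) (φ m₁) hm₂ hm₂ (by rw [hm₂sq, h0 _ hφv₁])]
          exact h0 _ (hcV x (φ m₁) hm₂)
        rw [hα, hβ, inv_mul_cancel, inv_mul_cancel]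
      · have hα : cmHom hcV m₁ hm₁ (ψ x) =
            resV φ (cmHom hcV m₁ hm₁ x * cmHom hcV (φ m₁) hm₂ x) := by
          apply Subtype.ext
          show ψ x * m₁ * (ψ x)⁻¹ * m₁⁻¹ =
            φ ((x * m₁ * x⁻¹ * m₁⁻¹) * (x * φ m₁ * x⁻¹ * (φ m₁)⁻¹))
          rw [hK m₁ (m₁ * φ m₁) hm₁ hm₁₂ (by rw [hm₁sq, hm₁₂sq, h1 _ hφφv₁, b.phi3 hv₁]),
            cm_mul_right hcV x m₁ (φ m₁) hm₂]
          exact h1 _ ((omZ X).mul_mem (hcV x m₁ hm₁) (hcV x (φ m₁) hm₂))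
        have hβ : cmHom hcV (φ m₁) hm₂ (ψ x) = resV φ (cmHom hcV m₁ hm₁ x) := by
          apply Subtype.ext
          show ψ x * φ m₁ * (ψ x)⁻¹ * (φ m₁)⁻¹ = φ (x * m₁ * x⁻¹ * m₁⁻¹)
          rw [hK (φ m₁) m₁ hm₂ hm₁ (by rw [hm₂sq, hm₁sq, h1 v₁ hv₁])]
          exact h1 _ (hcV x m₁ hm₁)
        rw [hα, hβ]
        exact vE1 (resV φ) hcomm hsq hmul h3 _ _
      · have hα : cmHom hcV m₁ hm₁ (ψ x) = resV φ (resV φ (cmHom hcV (φ m₁) hm₂ x)) := by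
          apply Subtype.ext
          show ψ x * m₁ * (ψ x)⁻¹ * m₁⁻¹ = φ (φ (x * φ m₁ * x⁻¹ * (φ m₁)⁻¹))
          rw [hK m₁ (φ m₁) hm₁ hm₂ (by rw [hm₁sq, hm₂sq, h2 _ hφv₁, b.phi3 hv₁])]
          exact h2 _ (hcV x (φ m₁) hm₂)
        have hβ : cmHom hcV (φ m₁) hm₂ (ψ x) =
            resV φ (resV φ (cmHom hcV m₁ hm₁ x * cmHom hcV (φ m₁) hm₂ x)) := by
          apply Subtype.ext
          show ψ x * φ m₁ * (ψ x)⁻¹ * (φ m₁)⁻¹ =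
            φ (φ ((x * m₁ * x⁻¹ * m₁⁻¹) * (x * φ m₁ * x⁻¹ * (φ m₁)⁻¹)))
          rw [hK (φ m₁) (m₁ * φ m₁) hm₂ hm₁₂
              (by rw [hm₂sq, hm₁₂sq, h2 _ hφφv₁, b.phi3 hv₁]),
            cm_mul_right hcV x m₁ (φ m₁) hm₂]
          exact h2 _ ((omZ X).mul_mem (hcV x m₁ hm₁) (hcV x (φ m₁) hm₂))
        rw [hα, hβ]
        exact vE2 (resV φ) hcomm hsq hmul h3 _ _
    intro x
    exact congrArg Subtype.val (key x)
  -- injectivity: `x ∉ M` centralizes no element of `M ∖ V`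
  have hInj : ∀ x : X, x ∉ M → ∀ m ∈ M, x * m * x⁻¹ * m⁻¹ = 1 → m * m = 1 := by
    intro x hx m hm hcm
    have ha : x * m₁ * x⁻¹ * m₁⁻¹ ≠ 1 := by
      intro h
      apply hx
      apply hC x h
      rw [hR x, h, map_one, map_one]
    have haV : x * m₁ * x⁻¹ * m₁⁻¹ ∈ omZ X := hcV x m₁ hm₁
    rcases hD x m hm with ⟨h, -⟩ | ⟨-, h⟩ | ⟨-, h⟩ | ⟨-, h⟩
    · exact h
    · exact absurd (h.symm.trans hcm) ha
    · exfalso
      rw [hR x] at h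
      exact b.phi_ne_one (b.phi_ne_one ha) (h.symm.trans hcm)
    · exfalso
      rw [hR x] at h
      have h1 : (x * m₁ * x⁻¹ * m₁⁻¹) * φ (φ (x * m₁ * x⁻¹ * m₁⁻¹)) =
          φ (x * m₁ * x⁻¹ * m₁⁻¹) := by
        have h2 := b.mul_phi (b.phi_mem (b.phi_mem haV))
        rw [b.phi3 haV] at h2
        rw [omZ_comm (b.phi_mem (b.phi_mem haV)) (x * m₁ * x⁻¹ * m₁⁻¹)]
        exact h2
      rw [h1] at h
      exact b.phi_ne_one ha (h.symm.trans hcm)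
  -- all squares lie in `V`
  have hsqX : ∀ x : X, x * x ∈ omZ X := by
    intro x
    by_cases hx : x ∈ M
    · exact hsqV x hx
    · have hxxM : x * x ∈ M := by
        apply hC
        · rw [cm_mul_left hcV x x m₁ hm₁]
          exact omZ_sq (hcV x m₁ hm₁)
        · rw [cm_mul_left hcV x x (φ m₁) hm₂]
          exact omZ_sq (hcV x (φ m₁) hm₂)
      apply hinvol _ hxxM
      apply hInj x hx (x * x) hxxM
      group
  -- all commutators lie in `V`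
  have hcomV : ∀ g x : X, g * x * g⁻¹ * x⁻¹ ∈ omZ X := by
    intro g x
    have hkM : g * x * g⁻¹ * x⁻¹ ∈ M :=
      hC _ (cm_comm_eq_one hcV g x m₁ hm₁) (cm_comm_eq_one hcV g x (φ m₁) hm₂)
    by_cases hgx : g * x ∈ M
    · have hk : g * x * g⁻¹ * x⁻¹ =
          (g * x) * (x * (g * x)⁻¹ * x⁻¹ * (g * x)⁻¹⁻¹) * (g * x)⁻¹ := by group
      rw [hk]
      exact (omZ_normal (X := X)).conj_mem _ (hcV x (g * x)⁻¹ (M.inv_mem hgx)) (g * x)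
    · apply hinvol _ hkM
      apply hInj (g * x) hgx _ hkM
      rw [cm_mul_left hcV g x _ hkM]
      have hxx := hsqX x
      have hgg := hsqX g
      obtain ⟨k, hk⟩ : ∃ k, k = g * x * g⁻¹ * x⁻¹ := ⟨_, rfl⟩
      rw [← hk] at hkM ⊢
      have h1 : (k * x) * (k * x) = x * x := by
        rw [hk]
        calc (g * x * g⁻¹ * x⁻¹ * x) * (g * x * g⁻¹ * x⁻¹ * x) = g * (x * x) * g⁻¹ := by group
          _ = (x * x) * g * g⁻¹ := by rw [omZ_comm hxx g]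
          _ = x * x := by group
      have h2 : (k⁻¹ * g) * (k⁻¹ * g) = g * g := by
        rw [hk]
        calc ((g * x * g⁻¹ * x⁻¹)⁻¹ * g) * ((g * x * g⁻¹ * x⁻¹)⁻¹ * g) = x * (g * g) * x⁻¹ := by
              group
          _ = (g * g) * x * x⁻¹ := by rw [omZ_comm hgg x]
          _ = g * g := by group
      rw [aux2 k g h2, aux1 k x h1]
      calc k⁻¹ * k⁻¹ * (k⁻¹ * k⁻¹) = (k ^ 4)⁻¹ := by
            simp only [pow_succ, pow_zero, one_mul, mul_assoc, mul_inv_rev]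
        _ = 1 := by rw [hexp4 k hkM, inv_one]
  -- conclusion: `X = bigW X ≤ M` is abelian
  obtain ⟨a0, b0, hab⟩ := hy.na
  apply hab
  have ha0 : a0 ∈ M := hWle (mem_bigW.mpr ⟨hsqX a0, fun g => hcomV g a0⟩)
  have hb0 : b0 ∈ M := hWle (mem_bigW.mpr ⟨hsqX b0, fun g => hcomV g b0⟩)
  exact hMab a0 ha0 b0 hb0

end Cfsg.Agent.Lib.Helper29.Scn
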